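import Cfsg.Agent.Base

/-! Insoluble extremely primitive groups of affine type (S3521): definitions and the statements of the steps. -/

set_option autoImplicit false

namespace CL.Ep

open MulAction Subgroup

universe u

/-- The linear form of an insoluble affine extremely primitive group: `H` is the point stabiliser. -/
structure EP (H V : Type u) [Group H] [AddCommGroup V] [DistribMulAction H V] : Prop where
  ne : ∃ v : V, v ≠ 0
  faith : ∀ v : V, v ≠ 0 → ∀ h : H, (∀ x ∈ orbit H v, h • x = x) → h = 1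
  prim : ∀ v : V, IsPreprimitive H (orbit H v)
  irr : ∀ M : Subgroup H, M.Normal → M ≠ ⊥ → ∀ L : AddSubgroup V, (∀ m ∈ M, ∀ x ∈ L, m • x ∈ L) → L = ⊥ ∨ L = ⊤
  ns : ¬ Group.IsSolvable H

/-- Almost simple. -/
def Alm (H : Type u) [Group H] : Prop :=
  ∃ T : Subgroup H, T.Normal ∧ IsSimpleGroup T ∧ ¬ IsMulCommutative T ∧ centralizer (T : Set H) = ⊥

def P2 : Prop := ∀ (H V : Type u) [Group H] [Finite H] [AddCommGroup V] [Finite V] [DistribMulAction H V] (p : ℕ),
  EP H V → p.Prime → (∀ x : V, p • x = 0) → p = 2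

def Cen : Prop := ∀ (H V : Type u) [Group H] [Finite H] [AddCommGroup V] [Finite V] [DistribMulAction H V],
  EP H V → (∀ x : V, x + x = 0) → ∀ M : Subgroup H, M.Normal → M ≠ ⊥ → centralizer (M : Set H) = ⊥

def AS : Prop := ∀ (H V : Type u) [Group H] [Finite H] [AddCommGroup V] [Finite V] [DistribMulAction H V],
  EP H V → (∀ x : V, x + x = 0) → Alm H

/-- The socle `T ^ m` acting on `V`: all vector stabilisers are of product or of diagonal type. -/
structure Cs (T : Type) (m : ℕ) (V : Type u) [Group T] [AddCommGroup V] [DistribMulAction (Fin m → T) V] : Prop where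
  nab : ¬ IsMulCommutative T
  two : ∀ x : V, x + x = 0
  ne : ∃ v : V, v ≠ 0
  faith : ∀ n : Fin m → T, (∀ x : V, n • x = x) → n = 1
  irr : ∀ L : AddSubgroup V, (∀ (n : Fin m → T), ∀ x ∈ L, n • x ∈ L) → L = ⊥ ∨ L = ⊤
  dich : ∀ v : V, v ≠ 0 →
    (∃ K : Fin m → Subgroup T, (∀ i, K i ≠ ⊤) ∧ ∀ n : Fin m → T, n • v = v ↔ ∀ i, n i ∈ K i) ∨
      ∃ (k : ℕ) (c : Fin m → Fin m) (θ : Fin m → T ≃* T), 2 ≤ k ∧
        (∀ j, Nat.card {i // c i = j} = k ∨ Nat.card {i // c i = j} = 0) ∧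
        ∀ n : Fin m → T, n • v = v ↔ ∀ i j, c i = c j → θ i (n i) = θ j (n j)

def Core : Prop := ∀ (T : Type) (m : ℕ) (V : Type u) [Group T] [Finite T] [IsSimpleGroup T] [AddCommGroup V] [Finite V]
  [DistribMulAction (Fin m → T) V], Cs T m V → 2 ≤ m → False

/-- Two factors and a vector fixed by a full diagonal. -/
def Cfg (T : Type) (m : ℕ) (V : Type u) [Group T] [AddCommGroup V] [DistribMulAction (Fin m → T) V] : Prop :=
  ∃ (i j : Fin m) (v : V) (φ : T ≃* T), i ≠ j ∧ (∀ l, l = i ∨ l = j) ∧ v ≠ 0 ∧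
    ∀ a : T, (Pi.mulSingle i a * Pi.mulSingle j (φ a) : Fin m → T) • v = v

def Two : Prop := ∀ (T : Type) (m : ℕ) (V : Type u) [Group T] [Finite T] [IsSimpleGroup T] [AddCommGroup V] [Finite V]
  [DistribMulAction (Fin m → T) V], Cs T m V → 2 ≤ m → Cfg T m V

/-- The matrix lemma. -/
def RL : Prop := ∀ (T : Type) [Group T] [Finite T] [IsSimpleGroup T] (K : Type u) [Field K] [CharP K 2] (n : ℕ)
  (ρ : T →* Matrix (Fin n) (Fin n) K), ¬ IsMulCommutative T → Function.Injective ρ →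
  (∀ X : Matrix (Fin n) (Fin n) K, X ≠ 0 → IsUnit X ∨ ∀ a c : T, ρ a * X = X * ρ c → ρ a * X = X) → False

def Ring : Prop := ∀ (T : Type) (m : ℕ) (V : Type u) [Group T] [Finite T] [IsSimpleGroup T] [AddCommGroup V] [Finite V]
  [DistribMulAction (Fin m → T) V], Cs T m V → Cfg T m V → False

theorem core_of (t : Two.{u}) (r : Ring.{u}) : Core.{u} := fun T m V _ _ _ _ _ _ h hm => r T m V h (t T m V h hm)

end CL.Ep
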