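/-
Insoluble extremely primitive groups of affine type: the characteristic is two, and centralizers of normal
subgroups are trivial.
-/
import Cfsg.Agent.Ep.Defs
import Cfsg.Agent.S0205
import Cfsg.Agent.Grp.SZConj

set_option autoImplicit false

namespace CL.Ep

open MulAction Subgroup

universe u

namespace CenAux

theorem exists_inv {X : Type*} [Group X] [Finite X] (h : ¬ Group.IsSolvable X) : ∃ t : X, t * t = 1 ∧ t ≠ 1 := by
  obtain ⟨t, ht⟩ := exists_prime_orderOf_dvd_card' (G := X) 2
    (even_iff_two_dvd.1 (Nat.not_odd_iff_even.1 fun e => h (Cfsg.Agent.S0205.result e)))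
  exact ⟨t, by rw [← pow_two, ← ht, pow_orderOf_eq_one], fun e => by simp [e] at ht⟩

variable {H V : Type u} [Group H] [Finite H] [AddCommGroup V] [DistribMulAction H V] (E : EP H V)
include E

omit [Finite H] in
theorem eq_one {c : H} (h : ∀ x : V, c • x = x) : c = 1 :=
  E.ne.elim fun v hv => E.faith v hv c fun x _ => h x

/-- An endomorphism which commutes with a normal subgroup is zero or injective. -/
theorem ker_or {M : Subgroup H} (hM : M.Normal) (h1 : M ≠ ⊥) (f : V →+ V) (hf : ∀ m ∈ M, ∀ x, f (m • x) = m • f x) :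
    Function.Injective f ∨ f = 0 :=
  (E.irr M hM h1 f.ker fun m hm x (hx : f x = 0) => show f _ = 0 by rw [hf m hm, hx, smul_zero]).imp
    (AddMonoidHom.ker_eq_bot_iff f).1 AddMonoidHom.ker_eq_top_iff.1

theorem solv (h2 : ∀ x : V, x + x = 0) {M : Subgroup H} (hM : M.Normal) (h1 : M ≠ ⊥) :
    Group.IsSolvable (centralizer (M : Set H)) := by
  by_contra h
  obtain ⟨⟨t, ht⟩, tt, t1⟩ := exists_inv h
  replace tt : t * t = 1 := congrArg Subtype.val tt
  have key : ∀ x : V, t • x = x ↔ (DistribSMul.toAddMonoidHom V t - AddMonoidHom.id V) x = 0 := fun x =>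
    sub_eq_zero.symm
  refine t1 (Subtype.ext (eq_one E fun x => ?_))
  rcases ker_or E hM h1 (DistribSMul.toAddMonoidHom V t - AddMonoidHom.id V) (fun m hm x => by
    change t • m • x - m • x = m • (t • x - x)
    rw [smul_sub, ← mul_smul, ← ht m hm, mul_smul]) with h3 | h3
  · have h4 := h3 (((key (x + t • x)).1 (by rw [smul_add, ← mul_smul, tt, one_smul, add_comm])).trans (map_zero _).symm)
    exact add_left_cancel (h4.trans (h2 x).symm)
  · exact (key x).2 (by rw [h3]; rfl)

theorem cyc {A : Subgroup H} (hA : A.Normal) (h1 : A ≠ ⊥) (hc : ∀ a ∈ A, ∀ b ∈ A, a * b = b * a) : IsCyclic A := by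
  let φ := DistribMulAction.toAddMonoidEnd H V
  let C := Subring.centralizer (φ '' A)
  have mem : ∀ a ∈ A, φ a ∈ C := fun a ha => Subring.mem_centralizer_iff.2 (by
    rintro _ ⟨b, hb, rfl⟩
    rw [← map_mul, hc b hb a ha, map_mul])
  have : NoZeroDivisors C := ⟨fun {a b} e => (ker_or E hA h1 a.1 fun m hm x =>
    (DFunLike.congr_fun (Subring.mem_centralizer_iff.1 a.2 _ ⟨m, hm, rfl⟩) x).symm).elim
      (fun h => .inr (Subtype.ext (AddMonoidHom.ext fun x =>
        h ((DFunLike.congr_fun (congrArg Subtype.val e) x).trans (map_zero _).symm))))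
      fun h => .inl (Subtype.ext h)⟩
  have : Nontrivial C := E.ne.elim fun v hv => ⟨1, 0, fun e => hv (DFunLike.congr_fun (congrArg Subtype.val e) v)⟩
  have : IsDomain C := NoZeroDivisors.to_isDomain C
  let f : A →* Subring.center C :=
    { toFun := fun a => ⟨⟨φ a, mem a a.2⟩, Subring.mem_center_iff.2 fun c =>
        Subtype.ext (Subring.mem_centralizer_iff.1 c.2 _ ⟨a, a.2, rfl⟩).symm⟩
      map_one' := Subtype.ext (Subtype.ext (map_one φ))
      map_mul' := fun a b => Subtype.ext (Subtype.ext (map_mul φ a.1 b.1)) }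
  exact isCyclic_of_injective_ringHom f ((injective_iff_map_eq_one f).2 fun a e =>
    Subtype.ext (eq_one E fun x => DFunLike.congr_fun (congrArg (fun y : Subring.center C => y.1.1) e) x))

end CenAux

open CenAux

theorem p2 : P2.{u} := by
  intro H V _ _ _ _ _ p E hp h0
  by_contra h2
  obtain ⟨t, tt, t1⟩ := exists_inv E.ns
  obtain ⟨x, hx⟩ := not_forall.1 (mt (eq_one E) t1)
  obtain ⟨v, hv⟩ : ∃ v, v = x - t • x := ⟨_, rfl⟩
  have v0 : v ≠ 0 := fun e => hx (sub_eq_zero.1 (hv ▸ e)).symm
  have tv : t • v = -v := by rw [hv, smul_sub, ← mul_smul, tt, one_smul, neg_sub]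
  have nv : -v ≠ v := fun e => v0 (by
    obtain ⟨k, hk⟩ := hp.odd_of_ne_two h2
    have := h0 v
    rwa [hk, add_smul, one_smul, mul_smul, two_smul, ← smul_add, neg_eq_iff_add_eq_zero.1 e,
      smul_zero, zero_add] at this)
  let S : Subgroup H :=
    { carrier := {h | h • v = v ∨ h • v = -v}
      one_mem' := .inl (one_smul _ _)
      mul_mem' := by
        rintro a b (ha | ha) (hb | hb) <;> simp [mul_smul, ha, hb]
      inv_mem' := by
        rintro a (ha | ha)
        · exact .inl (inv_smul_eq_iff.2 ha.symm)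
        · exact .inr (inv_smul_eq_iff.2 (by rw [smul_neg, ha, neg_neg])) }
  have := E.prim v
  have : Nontrivial (orbit H v) := ⟨⟨v, mem_orbit_self v⟩, ⟨-v, t, tv⟩, fun e => nv (congrArg Subtype.val e).symm⟩
  have hS : S = ⊤ := (IsPreprimitive.isCoatom_stabilizer_of_isPreprimitive H (⟨v, mem_orbit_self v⟩ : orbit H v)).2 S
    (lt_of_le_not_ge (fun h hh => .inl (congrArg Subtype.val hh))
      fun h => nv (tv.symm.trans (congrArg Subtype.val (h (.inr tv)))))
  have hs : ∀ h : H, h • v = v ∨ h • v = -v := fun h => show h ∈ S from hS ▸ mem_top h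
  refine E.ns (Group.isSolvable_of_comm fun a b => inv_mul_eq_one.1 (E.faith v v0 _ ?_))
  rintro _ ⟨g, rfl⟩
  rw [mul_smul, inv_smul_eq_iff, mul_smul, mul_smul]
  rcases hs a with h1 | h1 <;> rcases hs b with h3 | h3 <;> rcases hs g with h4 | h4 <;> simp [h1, h3, h4]

theorem cen : Cen.{u} := by
  intro H V _ _ _ _ _ E h2 M hM h1
  by_contra h3
  have := solv E h2 hM h1
  obtain ⟨A, hA, -, h4, h5⟩ := CL.Grp.exists_abelian_normal_le_of_isSolvable (centralizer (M : Set H)) h3
  have := cyc E hA h4 fun a ha b hb => setLike_mul_comm ha hb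
  have := solv E h2 hA h4
  refine E.ns (Group.isSolvable_of_ker_le_range (centralizer (A : Set H)).subtype
    ((IsCyclic.mulAutMulEquiv A).toMonoidHom.comp MulAut.conjNormal) fun g hg => ⟨⟨g, fun a ha => ?_⟩, rfl⟩)
  have e : MulAut.conjNormal g = 1 := (IsCyclic.mulAutMulEquiv A).map_eq_one_iff.1 hg
  exact (mul_inv_eq_iff_eq_mul.1 (congrArg Subtype.val (MulEquiv.congr_fun e ⟨a, ha⟩))).symm

end CL.Ep
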