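import Cfsg.Agent.Ep.Defs
import Cfsg.Agent.C2Low.Basic

/-! The matrix lemma `RL` of project EP. -/

set_option autoImplicit false

namespace CL.Ep

universe u

theorem rl_hom_one {T : Type} [Group T] [IsSimpleGroup T] (hn : ¬ IsMulCommutative T) {K : Type u} [Field K]
    (d : T →* K) (g : T) : d g = 1 := by
  have hN : (d.toHomUnits.ker).Normal := inferInstance
  rcases hN.eq_bot_or_eq_top with h | h
  · exfalso
    refine hn ⟨⟨fun a b => ?_⟩⟩
    have hi := (MonoidHom.ker_eq_bot_iff _).1 h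
    apply hi
    rw [map_mul, map_mul, mul_comm]
  · have : g ∈ d.toHomUnits.ker := h ▸ Subgroup.mem_top g
    rw [MonoidHom.mem_ker] at this
    have := congrArg Units.val this
    simpa using this

theorem rl_core {T : Type} [Group T] [Finite T] [IsSimpleGroup T] {K V : Type u} [Field K] [CharP K 2]
    [AddCommGroup V] [Module K V] (R : T →* Module.End K V) (hn : ¬ IsMulCommutative T)
    (inj : Function.Injective R)
    (hyp : ∀ X : Module.End K V, X ≠ 0 → IsUnit X ∨ ∀ a c : T, R a * X = X * R c → R a * X = X) : False := by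
  obtain ⟨t, ht⟩ : ∃ t : T, orderOf t = 2 :=
    exists_prime_orderOf_dvd_card' 2 (CL.C2Low.even_card_of_simple hn).two_dvd
  have hiso := CL.C2Low.not_isolated_of_simple hn t
  simp only [Cfsg.IsIsolatedInvolution, not_and, not_forall] at hiso
  obtain ⟨h, hc, hne⟩ := hiso ht
  have t1 : t ≠ 1 := fun e => by rw [e, orderOf_one] at ht; exact absurd ht (by norm_num)
  have tt : t * t = 1 := by rw [← pow_two, ← ht, pow_orderOf_eq_one]
  have tw : ∀ x : V, x + x = 0 := fun x => by
    rw [← two_smul K x, (CharP.cast_eq_zero K 2 : ((2 : ℕ) : K) = 0) |> fun e => (by exact_mod_cast e : (2 : K) = 0),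
      zero_smul]
  have rm : ∀ (a b : T) (x : V), R a (R b x) = R (a * b) x := fun a b x => by rw [map_mul]; rfl
  have r1 : ∀ g : T, (∀ x, R g x = x) → g = 1 := fun g e => inj (by rw [map_one]; exact LinearMap.ext e)
  have AA : ∀ x, R t (R t x) = x := fun x => by rw [rm, tt, map_one]; rfl
  obtain ⟨ν, hν⟩ : ∃ ν : Module.End K V, ν = 1 + R t := ⟨_, rfl⟩
  have νx : ∀ x, ν x = x + R t x := fun x => by rw [hν]; rfl
  have Ax : ∀ x, R t x = x + ν x := fun x => by rw [νx, ← add_assoc, tw, zero_add]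
  have νA : ∀ x, ν (R t x) = ν x := fun x => by rw [νx, νx, AA, add_comm]
  obtain ⟨w, hw⟩ : ∃ w, ν w ≠ 0 := by
    by_contra hh
    push Not at hh
    exact t1 (r1 t fun x => by rw [Ax, hh, add_zero])
  obtain ⟨u, hu⟩ : ∃ u, u = ν w := ⟨_, rfl⟩
  rw [← hu] at hw
  have νu : ν u = 0 := by
    have := νA w
    rw [Ax w, map_add, ← hu] at this
    exact add_eq_left.1 this
  have Au : R t u = u := by rw [Ax, νu, add_zero]
  have Aw : R t w = w + u := by rw [Ax, hu]
  have hind : u ∉ Submodule.span K {w} := fun hm => by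
    obtain ⟨c, hc⟩ := Submodule.mem_span_singleton.1 hm
    have h2 : c • u = 0 := by rw [← νu, ← hc, map_smul, ← hu, hc]
    rcases smul_eq_zero.1 h2 with h3 | h3
    · rw [h3, zero_smul] at hc; exact hw hc.symm
    · exact hw h3
  obtain ⟨f, hf, hfk⟩ := Submodule.exists_le_ker_of_notMem hind
  obtain ⟨l, lu, lw⟩ : ∃ l : V →ₗ[K] K, l u = 1 ∧ l w = 0 :=
    ⟨(f u)⁻¹ • f, by simp [hf], by
      have : f w = 0 := hfk (Submodule.mem_span_singleton_self w)
      simp [this]⟩
  obtain ⟨E, hE⟩ : ∃ E : Module.End K V, ∀ x, E x = l (ν x) • w + l x • u :=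
    ⟨(l ∘ₗ ν).smulRight w + l.smulRight u, fun x => by simp⟩
  have Ew : E w = w := by rw [hE, ← hu, lu, lw, one_smul, zero_smul, add_zero]
  have w0 : w ≠ 0 := fun e => hw (by rw [hu, e, map_zero])
  have hEu : IsUnit E := by
    refine (hyp E fun e => w0 (by rw [← Ew, e]; rfl)).resolve_right fun hh => ?_
    have h1 : R t * E = E * R t := LinearMap.ext fun x => by
      show R t (E x) = E (R t x)
      rw [hE, hE, νA, map_add, map_smul, map_smul, Aw, Au, Ax x, map_add, smul_add, add_smul]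
      abel
    have h2 : R t (E w) = E w := congrArg (fun X : Module.End K V => X w) (hh t t h1)
    rw [Ew, Aw] at h2
    exact hw (add_eq_left.1 h2)
  have dec : ∀ y, y = l y • u + l (ν y) • w := fun y => by
    obtain ⟨x, rfl⟩ := ((Module.End.isUnit_iff E).1 hEu).2 y
    rw [hE x]
    simp only [map_add, map_smul, ← hu, νu, lu, lw, smul_eq_mul, mul_one, mul_zero, smul_zero, add_zero, zero_add]
    abel
  have ext : ∀ X Y : Module.End K V, X u = Y u → X w = Y w → X = Y := fun X Y h1 h2 =>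
    LinearMap.ext fun y => by rw [dec y, map_add, map_add, map_smul, map_smul, map_smul, map_smul, h1, h2]
  have star : ∀ a c : T, R a * ν = ν * R c → R a * ν = ν := by
    refine (hyp ν fun e => hw (by rw [hu, e]; rfl)).resolve_left fun hh => ?_
    exact hw (((Module.End.isUnit_iff ν).1 hh).1 (by rw [νu, map_zero]))
  have t'u : R (h * t * h⁻¹) u = u := by
    have h1 : R (h * t * h⁻¹) * ν = ν * R (h * t * h⁻¹) := by
      rw [hν, mul_add, add_mul, mul_one, one_mul, ← map_mul, ← map_mul, hc.eq]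
    have h2 : R (h * t * h⁻¹) (ν w) = ν w := congrArg (fun X : Module.End K V => X w) (star _ _ h1)
    rwa [← hu] at h2
  have b0 : l (ν (R h u)) = 0 := by
    by_contra hb
    have h1 : R (h * t * h⁻¹) (R h u) = R h u := by
      rw [rm, inv_mul_cancel_right, ← rm, Au]
    have h2 := h1
    rw [dec (R h u), map_add, map_smul, map_smul, t'u, add_right_inj] at h2
    have h3 : R (h * t * h⁻¹) w = w := smul_right_injective V hb h2
    have h4 : h * t * h⁻¹ = 1 := inj (by rw [map_one]; exact ext _ _ t'u h3)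
    exact t1 (by
      have : t = h⁻¹ * (h * t * h⁻¹) * h := by group
      rw [this, h4]; group)
  obtain ⟨d, hd⟩ : ∃ d : T →* K, ∀ g, d g = l (R g u) * l (ν (R g w)) - l (R g w) * l (ν (R g u)) := by
    refine ⟨⟨⟨fun g => l (R g u) * l (ν (R g w)) - l (R g w) * l (ν (R g u)), ?_⟩, fun a b => ?_⟩, fun g => rfl⟩
    · simp only [map_one, Module.End.one_apply, ← hu, νu, lu, lw, map_zero]
      ring
    · simp only [← rm]
      have e1 : R a (R b u) = l (R b u) • R a u + l (ν (R b u)) • R a w := by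
        rw [← map_smul, ← map_smul, ← map_add, ← dec]
      have e2 : R a (R b w) = l (R b w) • R a u + l (ν (R b w)) • R a w := by
        rw [← map_smul, ← map_smul, ← map_add, ← dec]
      rw [e1, e2]
      simp only [map_add, map_smul, smul_eq_mul]
      ring
  have d1 := rl_hom_one hn d h
  rw [hd, b0, mul_zero, sub_zero] at d1
  obtain ⟨a, ha⟩ : ∃ a, a = l (R h u) := ⟨_, rfl⟩
  obtain ⟨b, hb⟩ : ∃ b, b = l (ν (R h w)) := ⟨_, rfl⟩
  obtain ⟨k, hk⟩ : ∃ k, k = l (R h w) := ⟨_, rfl⟩
  rw [← ha, ← hb] at d1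
  have Hu : R h u = a • u := by rw [dec (R h u), b0, zero_smul, add_zero, ← ha]
  have Hw : R h w = k • u + b • w := by rw [dec (R h w), ← hk, ← hb]
  have inv : ∀ x, R h⁻¹ (R h x) = x := fun x => by rw [rm, inv_mul_cancel, map_one]; rfl
  have H'u : R h⁻¹ u = b • u := by
    have := inv u
    rw [Hu, map_smul] at this
    calc R h⁻¹ u = (b * a) • R h⁻¹ u := by rw [mul_comm, d1, one_smul]
      _ = b • u := by rw [mul_smul, this]
  have H'w : ν (R h⁻¹ w) = a • u := by
    have h1 := congrArg ν (inv w)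
    rw [Hw, map_add, map_smul, map_smul, H'u, map_add, map_smul, map_smul, map_smul, νu, smul_zero, smul_zero,
      zero_add, ← hu] at h1
    calc ν (R h⁻¹ w) = (a * b) • ν (R h⁻¹ w) := by rw [d1, one_smul]
      _ = a • u := by rw [mul_smul, h1]
  have h1 : R h * ν = ν * R h⁻¹ := by
    refine ext _ _ ?_ ?_
    · show R h (ν u) = ν (R h⁻¹ u)
      rw [νu, H'u, map_smul, νu, map_zero, smul_zero]
    · show R h (ν w) = ν (R h⁻¹ w)
      rw [← hu, Hu, H'w]
  have h2 : R h (ν w) = ν w := congrArg (fun X : Module.End K V => X w) (star _ _ h1)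
  rw [← hu] at h2
  have a1 : a = 1 := by rw [ha, h2, lu]
  rw [a1, one_mul] at d1
  rw [d1, one_smul] at Hw
  have h3 : R (h * t) = R (t * h) := by
    refine ext _ _ ?_ ?_
    · rw [← rm, ← rm, Au, h2, Au]
    · rw [← rm, ← rm, Aw, map_add, Hw, h2, map_add, map_smul, Au, Aw, add_assoc]
  exact hne (by rw [inj h3]; group)

theorem rl : RL.{u} := by
  intro T _ _ _ K _ _ n ρ hn inj hyp
  let e := (Matrix.toLinAlgEquiv' : Matrix (Fin n) (Fin n) K ≃ₐ[K] (Module.End K (Fin n → K)))
  refine rl_core (K := K) (V := Fin n → K) (e.toMulEquiv.toMonoidHom.comp ρ) hn (e.injective.comp inj) fun X hX => ?_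
  obtain ⟨Y, rfl⟩ := e.surjective X
  rcases hyp Y (fun h => hX (by rw [h, map_zero])) with h | h
  · exact Or.inl (h.map e)
  · refine Or.inr fun a c hac => ?_
    have h1 : e (ρ a) * e Y = e Y * e (ρ c) := hac
    rw [← map_mul, ← map_mul] at h1
    show e (ρ a) * e Y = e Y
    rw [← map_mul, h a c (e.injective h1)]

end CL.Ep
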