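import Cfsg.Agent.Ep.Defs

/-! Insoluble extremely primitive groups of affine type (S3521): the ring spanned by one factor of the socle. -/

set_option autoImplicit false

namespace CL.Ep

universe u

namespace RingJ

variable {T : Type} [Group T] {V : Type u} [AddCommGroup V]

/-- two commuting actions of `T` and a vector fixed by the diagonal -/
structure Dt (r s : T →* AddMonoid.End V) (v : V) : Prop where
  two : ∀ x : V, x + x = 0
  ne : v ≠ 0
  comm : ∀ a b, s b * r a = r a * s b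
  fix : ∀ a, r a (s a v) = v
  irr : ∀ L : AddSubgroup V, (∀ a, ∀ x ∈ L, r a x ∈ L) → (∀ a, ∀ x ∈ L, s a x ∈ L) → L = ⊥ ∨ L = ⊤
  inj : Function.Injective r
  dich : ∀ w : V, w ≠ 0 → (∀ a c, r a (s c w) = w → r a w = w) ∨ ∀ a, ∃ c, r a (s c w) = w

/-- the ring spanned by the first action -/
def AA (r : T →* AddMonoid.End V) : Subring (AddMonoid.End V) := Subring.closure (Set.range r)

/-- the first action with values in this ring -/
def rA (r : T →* AddMonoid.End V) : T →* AA r :=
  r.codRestrict (AA r).toSubmonoid fun a => Subring.subset_closure ⟨a, rfl⟩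

/-- evaluation at `v` -/
def ev (r : T →* AddMonoid.End V) (v : V) : AA r →+ V where
  toFun X := X.1 v
  map_zero' := rfl
  map_add' _ _ := rfl

variable {r s : T →* AddMonoid.End V} {v : V}

theorem ev_mul (a : T) (X : AA r) : ev r v (rA r a * X) = r a (ev r v X) := rfl

namespace Dt

variable (h : Dt r s v)
include h

theorem cA (X : AA r) (b : T) (w : V) : s b (X.1 w) = X.1 (s b w) :=
  DFunLike.congr_fun ((Subring.closure_le (t := Subring.centralizer {s b})).2
    (by rintro _ ⟨a, rfl⟩ _ rfl; exact h.comm a b) X.2 _ rfl) w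

theorem sev (X : AA r) (c : T) : s c (ev r v X) = ev r v (X * rA r c⁻¹) := by
  change s c (X.1 v) = X.1 (r c⁻¹ v)
  rw [h.cA]
  conv_rhs => rw [← h.fix c]
  exact congrArg X.1 (DFunLike.congr_fun (show 1 = r c⁻¹ * r c by rw [← map_mul, inv_mul_cancel, map_one]) _)

theorem map_ev (I : AddSubgroup (AA r)) (k : ∀ a, ∀ X ∈ I, rA r a * X ∈ I ∧ X * rA r a ∈ I) :
    I.map (ev r v) = ⊥ ∨ I.map (ev r v) = ⊤ :=
  h.irr _ (by rintro a _ ⟨X, hX, rfl⟩; exact ⟨_, (k a X hX).1, rfl⟩)
    (by rintro a _ ⟨X, hX, rfl⟩; exact ⟨_, (k _ X hX).2, (h.sev X a).symm⟩)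

theorem ev_inj : Function.Injective (ev r v) := (injective_iff_map_eq_zero _).2 fun X hX => by
  have k : ∀ Y (hY : Y ∈ AA r), ∀ X : AA r, ev r v X = 0 → ev r v (X * ⟨Y, hY⟩) = 0 := fun Y hY => by
    induction hY using Subring.closure_induction with
    | mem x hx =>
      obtain ⟨c, rfl⟩ := hx
      intro X hX
      have := h.sev X c⁻¹
      rw [inv_inv, hX, map_zero] at this
      exact this.symm
    | zero => exact fun X _ => (congrArg _ (mul_zero X)).trans (map_zero _)
    | one => exact fun X hX => (congrArg _ (mul_one X)).trans hX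
    | add a b ha hb ia ib =>
      exact fun X hX => (congrArg _ (mul_add X ⟨a, ha⟩ ⟨b, hb⟩)).trans (by rw [map_add, ia X hX, ib X hX, add_zero])
    | neg a ha ia => exact fun X hX => (congrArg _ (mul_neg X ⟨a, ha⟩)).trans (by rw [map_neg, ia X hX, neg_zero])
    | mul a b ha hb ia ib => exact fun X hX => (congrArg _ (mul_assoc X ⟨a, ha⟩ ⟨b, hb⟩).symm).trans (ib _ (ia X hX))
  have top := (h.map_ev ⊤ fun _ _ _ => ⟨trivial, trivial⟩).resolve_left fun e =>
    h.ne (AddSubgroup.mem_bot.1 (e ▸ ⟨1, trivial, rfl⟩))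
  refine Subtype.ext (AddMonoidHom.ext fun w => ?_)
  obtain ⟨Y, -, rfl⟩ := top.ge (AddSubgroup.mem_top w)
  exact k Y.1 Y.2 X hX

theorem ideal (I : AddSubgroup (AA r)) (k : ∀ a, ∀ X ∈ I, rA r a * X ∈ I ∧ X * rA r a ∈ I) : I = ⊥ ∨ I = ⊤ :=
  (h.map_ev I k).imp (AddSubgroup.map_eq_bot_iff_of_injective I h.ev_inj).1 fun e => eq_top_iff.2 fun X _ => by
    obtain ⟨Y, hY, e1⟩ := e.ge (AddSubgroup.mem_top (ev r v X))
    exact h.ev_inj e1 ▸ hY

theorem simple : IsSimpleRing (AA r) := by
  have : Nontrivial (AA r) := ⟨1, 0, fun e => h.ne (congrArg (ev r v) e)⟩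
  refine .of_eq_bot_or_eq_top fun I => (h.ideal I.asIdeal.toAddSubgroup fun a X hX =>
    ⟨I.mul_mem_left _ _ hX, I.mul_mem_right _ _ hX⟩).imp (fun e => ?_) fun e => ?_
  · exact eq_bot_iff.2 fun X hX => e.le hX
  · exact eq_top_iff.2 fun X _ => e.ge trivial

theorem alt {X : AA r} (hX : X ≠ 0) : (∃ Y, X * Y = 1) ∨ ∀ a c, rA r a * X = X * rA r c → rA r a * X = X := by
  refine (h.dich (ev r v X) fun e => hX (h.ev_inj (e.trans (map_zero _).symm))).symm.imp (fun k => ?_)
    fun k a c e => h.ev_inj (k a c (by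
      rw [h.sev, ← ev_mul, ← mul_assoc, e, mul_assoc, ← map_mul, mul_inv_cancel, map_one, mul_one]))
  refine ((h.ideal (AddMonoidHom.mulLeft X).range ?_).resolve_left fun e => hX
    (AddSubgroup.mem_bot.1 (e ▸ ⟨1, mul_one X⟩))).ge (AddSubgroup.mem_top 1)
  rintro a _ ⟨Y, rfl⟩
  obtain ⟨c, e⟩ := k a
  rw [h.sev, ← ev_mul] at e
  refine ⟨⟨rA r c * Y, ?_⟩, Y * rA r a, (mul_assoc _ _ _).symm⟩
  change X * (rA r c * Y) = rA r a * (X * Y)
  conv_lhs => rw [← h.ev_inj e]
  rw [mul_assoc, mul_assoc, ← mul_assoc (rA r c⁻¹), ← map_mul, inv_mul_cancel, map_one, one_mul]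

theorem false [Finite T] [IsSimpleGroup T] [Finite V] (rl : RL.{u}) (nab : ¬ IsMulCommutative T) : False := by
  have := h.simple
  have : Finite (AA r) := .of_injective _ h.ev_inj
  obtain ⟨n, hn, D, _, ⟨e⟩⟩ := IsSimpleRing.exists_ringEquiv_matrix_divisionRing (AA r)
  have : Finite (Matrix (Fin n) (Fin n) D) := .of_equiv _ e.toEquiv
  have : Finite D := .of_injective (fun d : D => (Matrix.of fun _ _ => d : Matrix (Fin n) (Fin n) D))
    fun _ _ k => congrFun (congrFun k 0) 0
  have two : (1 + 1 : D) = 0 := by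
    have k : (1 + 1 : AA r) = 0 := h.ev_inj (h.two v)
    have k1 := congrArg e k
    rw [map_add, map_one, map_zero] at k1
    simpa using congrFun (congrFun k1 0) 0
  let F : Field D := littleWedderburn D
  have : CharP D 2 := CharTwo.of_one_ne_zero_of_two_eq_zero one_ne_zero (one_add_one_eq_two.symm.trans two)
  refine rl T D n (e.toMonoidHom.comp (rA r)) nab (fun a b k => h.inj (congrArg Subtype.val (e.injective k)))
    fun X hX => ?_
  obtain ⟨X, rfl⟩ := e.surjective X
  refine (h.alt (X := X) fun k => hX (by rw [k, map_zero])).imp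
    (fun ⟨Y, k⟩ => IsUnit.of_mul_eq_one (e Y) (by rw [← map_mul, k, map_one])) fun k a c j => ?_
  exact (map_mul e _ _).symm.trans (congrArg e (k a c (e.injective ((map_mul e _ _).trans
    (j.trans (map_mul e _ _).symm)))))

end Dt

end RingJ

open RingJ in
theorem ring (rl : RL.{u}) : Ring.{u} := fun T m V _ _ _ _ _ _ h ⟨i, j, v, φ, ij, all, v0, fix⟩ => by
  let r : T →* AddMonoid.End V :=
    (DistribMulAction.toAddMonoidEnd (Fin m → T) V).comp (MonoidHom.mulSingle (fun _ => T) i)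
  let s : T →* AddMonoid.End V :=
    (DistribMulAction.toAddMonoidEnd (Fin m → T) V).comp ((MonoidHom.mulSingle (fun _ => T) j).comp φ.toMonoidHom)
  have hr : ∀ a x, r a x = (Pi.mulSingle i a : Fin m → T) • x := fun _ _ => rfl
  have hs : ∀ a x, s a x = (Pi.mulSingle j (φ a) : Fin m → T) • x := fun _ _ => rfl
  have ni : ∀ a b : T, (Pi.mulSingle i a * Pi.mulSingle j b : Fin m → T) i = a := fun a b => by simp [ij]
  have nj : ∀ a b : T, (Pi.mulSingle i a * Pi.mulSingle j b : Fin m → T) j = b := fun a b => by simp [ij.symm]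
  refine Dt.false (r := r) (s := s) (v := v) ⟨h.two, v0, fun a b => AddMonoidHom.ext fun x => ?_,
    fun a => by rw [hr, hs, ← mul_smul, fix], fun L k1 k2 => h.irr L fun n x hx => ?_,
    (injective_iff_map_eq_one r).2 fun a k => ?_, fun w hw => ?_⟩ rl h.nab
  · change s b (r a x) = r a (s b x)
    rw [hr, hs, hr, hs, ← mul_smul, ← mul_smul, (Pi.mulSingle_commute (f := fun _ => T) ij a (φ b)).eq]
  · rw [show n = Pi.mulSingle i (n i) * Pi.mulSingle j (φ (φ.symm (n j))) from funext fun l => by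
      rcases all l with rfl | rfl
      exacts [(ni _ _).symm, by rw [nj, φ.apply_symm_apply]], mul_smul]
    exact k1 _ _ (k2 _ _ hx)
  · simpa using congrFun (h.faith (Pi.mulSingle i a) fun x => DFunLike.congr_fun k x) i
  · refine (h.dich w hw).imp (fun ⟨K, _, k⟩ a c e => (k _).2 fun l => ?_) fun ⟨_, _, θ, _, _, k⟩ a =>
      ⟨φ.symm ((θ j).symm (θ i a)), ?_⟩
    · rw [hr, hs, ← mul_smul] at e
      rcases all l with rfl | rfl
      · simpa [ij] using (k _).1 e l
      · simp [ij.symm]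
    · rw [hr, hs, ← mul_smul, φ.apply_symm_apply]
      refine (k _).2 fun l l' _ => ?_
      rcases all l with rfl | rfl <;> rcases all l' with rfl | rfl <;> simp only [ni, nj, MulEquiv.apply_symm_apply]

end CL.Ep
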