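import Cfsg.Agent.Ep.Defs
import Cfsg.Agent.Perm.PrimONS
import Cfsg.Agent.Grp.MinNormal

/-! Insoluble extremely primitive groups of affine type: the socle of the point stabiliser. -/

set_option autoImplicit false

namespace CL.Ep

open MulAction Subgroup

universe u

theorem aS (cen : Cen.{u}) (core : Core.{u}) : AS.{u} := by
  intro H V _ _ _ _ _ h h2
  have hn : (⊤ : Subgroup H) ≠ ⊥ := fun e => h.ns (Group.isSolvable_of_comm fun a b => by
    rw [mem_bot.1 (e ▸ mem_top a : a ∈ (⊥ : Subgroup H)), one_mul, mul_one])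
  obtain ⟨M, hM, -⟩ := CL.Grp.exists_isMinNormal_le ⊤ hn
  have hc := cen H V h h2 M hM.normal hM.ne_bot
  have nab : ¬ IsMulCommutative M := fun k => hM.ne_bot (le_bot_iff.1 (hc ▸ le_centralizer M))
  obtain ⟨T, _, m, hs, hT, _, hm, ⟨e⟩⟩ := CL.Perm.exists_simple_pi_of_isMinNormal hM nab
  rcases Nat.lt_or_ge m 2 with h1 | h1
  · obtain rfl : m = 1 := by omega
    exact ⟨M, hM.normal, (e.trans (MulEquiv.funUnique (Fin 1) T)).isSimpleGroup, nab, hc⟩
  exfalso
  let _ : DistribMulAction (Fin m → T) V := DistribMulAction.compHom V (M.subtype.comp e.symm.toMonoidHom)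
  have hsm : ∀ (n : Fin m → T) (x : V), n • x = (e.symm n : H) • x := fun _ _ => rfl
  refine core T m V ⟨hT, h2, h.ne, fun n hn => ?_, fun L hL => h.irr M hM.normal hM.ne_bot L fun g hg x hx => ?_,
    fun v hv => ?_⟩ h1
  · obtain ⟨v, hv⟩ := h.ne
    have := h.faith v hv (e.symm n) fun x _ => hn x
    exact e.symm.injective (Subtype.ext (by rw [this, map_one]; rfl))
  · have := hL (e ⟨g, hg⟩) x hx
    rwa [hsm, e.symm_apply_apply] at this
  · have : FaithfulSMul H (orbit H v) := ⟨fun {a b} k => by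
      rw [← inv_mul_eq_one.1 (h.faith v hv (b⁻¹ * a) fun x hx => ?_)]
      rw [mul_smul, inv_smul_eq_iff]
      exact congrArg Subtype.val (k ⟨x, hx⟩)⟩
    have := h.prim v
    have key : ∀ n : Fin m → T, n • v = v ↔ e.symm n • (⟨v, mem_orbit_self v⟩ : orbit H v) = ⟨v, mem_orbit_self v⟩ :=
      fun n => by rw [Subtype.ext_iff]; rfl
    rcases CL.Perm.onan_scott_dichotomy hT hM e (⟨v, mem_orbit_self v⟩ : orbit H v) with ⟨K, k1, k2⟩ |
      ⟨k, c, θ, k1, k2, k3⟩
    · exact .inl ⟨K, k1, fun n => by rw [key, k2, e.apply_symm_apply]⟩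
    · exact .inr ⟨k, c, θ, k1, k2, fun n => by rw [key, k3, e.apply_symm_apply]⟩

end CL.Ep
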