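import Cfsg.Agent.Ep.Defs
import Cfsg.Agent.S0205

/-! Step `Two` of S3521: the socle has exactly two factors and some vector is fixed by a full diagonal. -/

set_option autoImplicit false

namespace CL.Ep

open MulAction Subgroup

universe u

section TwoAux

variable {T : Type} {m : ℕ} {V : Type u} [Group T] [AddCommGroup V] [DistribMulAction (Fin m → T) V]

theorem two_conj_single (n : Fin m → T) (i : Fin m) (a : T) :
    (Pi.mulSingle i a : Fin m → T) * n = n * Pi.mulSingle i ((n i)⁻¹ * a * n i) := by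
  funext l
  by_cases h : l = i
  · subst h
    simp [mul_assoc]
  · simp [Pi.mulSingle_eq_of_ne h]

theorem two_fix [IsSimpleGroup T] (h : Cs T m V) (i : Fin m) (x : V)
    (hx : ∀ a : T, (Pi.mulSingle i a : Fin m → T) • x = x) : x = 0 := by
  let L : AddSubgroup V :=
    { carrier := {x | ∀ a : T, (Pi.mulSingle i a : Fin m → T) • x = x}
      add_mem' := fun {x y} hx hy a => by rw [smul_add, hx a, hy a]
      zero_mem' := fun a => smul_zero _
      neg_mem' := fun {x} hx a => by rw [smul_neg, hx a] }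
  have hL : ∀ (n : Fin m → T), ∀ x ∈ L, n • x ∈ L := by
    intro n x hx a
    rw [← mul_smul, two_conj_single, mul_smul, hx]
  rcases h.irr L hL with h0 | h1
  · have : x ∈ L := hx
    rw [h0] at this
    exact AddSubgroup.mem_bot.mp this
  · exfalso
    obtain ⟨a, ha⟩ := exists_ne (1 : T)
    have h2 : (Pi.mulSingle i a : Fin m → T) = 1 := by
      apply h.faith
      intro y
      have : y ∈ L := by rw [h1]; exact AddSubgroup.mem_top y
      exact this a
    have := congrFun h2 i
    simp at this
    exact ha this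

theorem two_invol [Finite T] [IsSimpleGroup T] (h : ¬ IsMulCommutative T) : ∃ t : T, t ≠ 1 ∧ t * t = 1 := by
  have hev : 2 ∣ Nat.card T := by
    by_contra hn
    have hodd : Odd (Nat.card T) := by
      rcases Nat.even_or_odd (Nat.card T) with h1 | h1
      · exact absurd (even_iff_two_dvd.mp h1) hn
      · exact h1
    have hs := Cfsg.Agent.S0205.result hodd
    apply h
    have := (IsSimpleGroup.comm_iff_isSolvable (G := T)).mpr hs
    exact ⟨⟨this⟩⟩
  have : Fact (Nat.Prime 2) := ⟨Nat.prime_two⟩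
  obtain ⟨t, ht⟩ := exists_prime_orderOf_dvd_card' 2 hev
  refine ⟨t, ?_, ?_⟩
  · rintro rfl
    simp at ht
  · rw [← pow_two, ← ht, pow_orderOf_eq_one]

theorem two_gen [IsSimpleGroup T] (t : T) (ht : t ≠ 1) (htt : t * t = 1) (K : Subgroup T)
    (hK : ∀ s : T, s * s = 1 → s ∈ K) : K = ⊤ := by
  have h1 : normalClosure ({t} : Set T) = ⊤ := by
    rcases (normalClosure_normal (s := ({t} : Set T))).eq_bot_or_eq_top with h | h
    · exfalso
      have : t ∈ normalClosure ({t} : Set T) := subset_normalClosure (Set.mem_singleton t)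
      rw [h] at this
      exact ht (mem_bot.mp this)
    · exact h
  rw [eq_top_iff, ← h1]
  unfold normalClosure
  rw [closure_le]
  intro s hs
  rw [Group.mem_conjugatesOfSet_iff] at hs
  obtain ⟨b, hb, hc⟩ := hs
  rw [Set.mem_singleton_iff] at hb
  subst hb
  obtain ⟨c, hc⟩ := isConj_iff.mp hc
  apply hK
  rw [← hc]
  calc c * b * c⁻¹ * (c * b * c⁻¹) = c * (b * b) * c⁻¹ := by group
    _ = 1 := by rw [htt]; simp

theorem two_block {k : ℕ} {c : Fin m → Fin m} (hk : 2 ≤ k)
    (hc : ∀ j, Nat.card {i // c i = j} = k ∨ Nat.card {i // c i = j} = 0) (l : Fin m) :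
    ∃ l', l' ≠ l ∧ c l' = c l := by
  by_contra hn
  push Not at hn
  have h1 : Nat.card {i // c i = c l} = 1 := by
    rw [Nat.card_eq_one_iff_unique]
    refine ⟨⟨fun a b => ?_⟩, ⟨⟨l, rfl⟩⟩⟩
    have ha : a.1 = l := by
      by_contra h
      exact hn a.1 h a.2
    have hb : b.1 = l := by
      by_contra h
      exact hn b.1 h b.2
    exact Subtype.ext (ha.trans hb.symm)
  rcases hc (c l) with h | h <;> omega

end TwoAux

theorem two : Two.{u} := by
  intro T m V _ _ _ _ _ _ h hm
  obtain ⟨t, ht1, htt⟩ := two_invol (T := T) h.nab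
  let i : Fin m := ⟨0, by omega⟩
  let j : Fin m := ⟨1, by omega⟩
  have hij : i ≠ j := by
    intro e
    have := congrArg Fin.val e
    simp [i, j] at this
  have hneg : ∀ x y : V, x + y = 0 → y = x := by
    intro x y hxy
    have h2 := h.two x
    calc y = (x + x) + y := by rw [h2, zero_add]
      _ = x + (x + y) := by abel
      _ = x := by rw [hxy, add_zero]
  have hsq : ∀ (l : Fin m) (a : T), a * a = 1 →
      (Pi.mulSingle l a : Fin m → T) * Pi.mulSingle l a = 1 := by
    intro l a ha
    rw [← Pi.mulSingle_mul, ha, Pi.mulSingle_one]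
  have hcomm : ∀ (l l' : Fin m) (a b : T), l ≠ l' →
      (Pi.mulSingle l a : Fin m → T) * Pi.mulSingle l' b = Pi.mulSingle l' b * Pi.mulSingle l a := by
    intro l l' a b hl
    exact (Pi.mulSingle_commute (f := fun _ : Fin m => T) hl a b).eq
  -- step 1
  have h1 : ∃ (t' : T) (x : V), t' * t' = 1 ∧
      (Pi.mulSingle j t' : Fin m → T) • (x + (Pi.mulSingle i t : Fin m → T) • x) ≠
        x + (Pi.mulSingle i t : Fin m → T) • x := by
    by_contra hn
    push Not at hn
    have h2 : (Pi.mulSingle i t : Fin m → T) = 1 := by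
      apply h.faith
      intro x
      let y : V := x + (Pi.mulSingle i t : Fin m → T) • x
      let K : Subgroup T := (stabilizer (Fin m → T) y).comap (MonoidHom.mulSingle (fun _ : Fin m => T) j)
      have hK : K = ⊤ := two_gen t ht1 htt K (fun s hs => hn s x hs)
      have hy : y = 0 := by
        apply two_fix h j
        intro a
        have : a ∈ K := by rw [hK]; exact mem_top a
        exact this
      exact hneg _ _ hy
    have := congrFun h2 i
    simp at this
    exact ht1 this
  obtain ⟨t', x, ht't', hx⟩ := h1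
  let n0 : Fin m → T := Pi.mulSingle i t * Pi.mulSingle j t'
  let v : V := x + n0 • x
  have hn0 : n0 * n0 = 1 := by
    calc n0 * n0 = (Pi.mulSingle i t * (Pi.mulSingle j t' * Pi.mulSingle i t)) * Pi.mulSingle j t' := by
          simp only [n0, mul_assoc]
      _ = (Pi.mulSingle i t * Pi.mulSingle i t) * (Pi.mulSingle j t' * Pi.mulSingle j t') := by
          rw [hcomm j i _ _ hij.symm]; simp only [mul_assoc]
      _ = 1 := by rw [hsq i t htt, hsq j t' ht't', one_mul]
  have hv0 : n0 • v = v := by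
    simp only [v]
    rw [smul_add, ← mul_smul, hn0, one_smul, add_comm]
  have hv1 : (Pi.mulSingle i t : Fin m → T) • v ≠ v := by
    intro e
    apply hx
    have e1 : (Pi.mulSingle i t : Fin m → T) • v =
        (Pi.mulSingle i t : Fin m → T) • x + (Pi.mulSingle j t' : Fin m → T) • x := by
      simp only [v, n0]
      rw [smul_add, ← mul_smul, ← mul_assoc, hsq i t htt, one_mul]
    have e2 : (Pi.mulSingle j t' : Fin m → T) • (x + (Pi.mulSingle i t : Fin m → T) • x) =
        (Pi.mulSingle j t' : Fin m → T) • x + n0 • x := by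
      simp only [n0]
      rw [smul_add, ← mul_smul, hcomm j i _ _ hij.symm]
    rw [e2]
    rw [e1] at e
    apply hneg
    have e3 := h.two v
    calc x + (Pi.mulSingle i t : Fin m → T) • x + ((Pi.mulSingle j t' : Fin m → T) • x + n0 • x)
        = ((Pi.mulSingle i t : Fin m → T) • x + (Pi.mulSingle j t' : Fin m → T) • x) + (x + n0 • x) := by abel
      _ = v + v := by rw [e]
      _ = 0 := e3
  have hvne : v ≠ 0 := by
    intro e
    apply hv1
    rw [e, smul_zero]
  have hn0i : n0 i = t := by
    simp [n0, Pi.mulSingle_eq_of_ne hij]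
  have hn0l : ∀ l, l ≠ i → l ≠ j → n0 l = 1 := by
    intro l h1 h2
    simp [n0, Pi.mulSingle_eq_of_ne h1, Pi.mulSingle_eq_of_ne h2]
  rcases h.dich v hvne with ⟨K, -, hK⟩ | ⟨k, c, θ, hk, hc, hθ⟩
  · exfalso
    apply hv1
    rw [hK]
    intro l
    by_cases hl : l = i
    · subst hl
      have := (hK n0).mp hv0 i
      rw [hn0i] at this
      simpa using this
    · rw [Pi.mulSingle_eq_of_ne hl]
      exact one_mem _
  have hblk : ∀ l, c l = c i → l = i ∨ l = j := by
    intro l hl
    by_contra hn
    push Not at hn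
    have := (hθ n0).mp hv0 l i hl
    rw [hn0l l hn.1 hn.2, hn0i, map_one] at this
    exact ht1 ((MulEquiv.map_eq_one_iff _).mp this.symm)
  have hcj : c j = c i := by
    obtain ⟨l', hl1, hl2⟩ := two_block hk hc i
    rcases hblk l' hl2 with e | e
    · exact absurd e hl1
    · rw [← e]; exact hl2
  let φ : T ≃* T := (θ i).trans (θ j).symm
  have hdi : ∀ a : T, (Pi.mulSingle i a * Pi.mulSingle j (φ a) : Fin m → T) i = a := by
    intro a
    simp [Pi.mulSingle_eq_of_ne hij]
  have hdj : ∀ a : T, (Pi.mulSingle i a * Pi.mulSingle j (φ a) : Fin m → T) j = φ a := by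
    intro a
    simp [Pi.mulSingle_eq_of_ne hij.symm]
  have hdl : ∀ (a : T) l, l ≠ i → l ≠ j → (Pi.mulSingle i a * Pi.mulSingle j (φ a) : Fin m → T) l = 1 := by
    intro a l h1 h2
    simp [Pi.mulSingle_eq_of_ne h1, Pi.mulSingle_eq_of_ne h2]
  have hφ : ∀ a : T, θ j (φ a) = θ i a := by
    intro a
    simp [φ]
  have hdiag : ∀ a : T, (Pi.mulSingle i a * Pi.mulSingle j (φ a) : Fin m → T) • v = v := by
    intro a
    rw [hθ]
    have key : ∀ l, c l = c i →
        θ l ((Pi.mulSingle i a * Pi.mulSingle j (φ a) : Fin m → T) l) = θ i a := by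
      intro l hl
      rcases hblk l hl with e | e
      · rw [e, hdi]
      · rw [e, hdj, hφ]
    intro l l' hll
    by_cases hl : c l = c i
    · rw [key l hl, key l' (hll.symm.trans hl)]
    · have a1 : l ≠ i := fun e => hl (by rw [e])
      have a2 : l ≠ j := fun e => hl (by rw [e, hcj])
      have a3 : l' ≠ i := fun e => hl (by rw [hll, e])
      have a4 : l' ≠ j := fun e => hl (by rw [hll, e, hcj])
      rw [hdl a l a1 a2, hdl a l' a3 a4, map_one, map_one]
  refine ⟨i, j, v, φ, hij, ?_, hvne, hdiag⟩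
  intro l
  by_contra hn
  push Not at hn
  obtain ⟨hli, hlj⟩ := hn
  have hex : ∃ v' : V, v' ≠ 0 ∧ (∀ a : T, (Pi.mulSingle i a * Pi.mulSingle j (φ a) : Fin m → T) • v' = v') ∧
      (Pi.mulSingle l t : Fin m → T) • v' = v' := by
    by_cases h0 : v + (Pi.mulSingle l t : Fin m → T) • v = 0
    · exact ⟨v, hvne, hdiag, hneg _ _ h0⟩
    · refine ⟨_, h0, ?_, ?_⟩
      · intro a
        rw [smul_add, hdiag a, ← mul_smul, mul_assoc, hcomm j l _ _ (Ne.symm hlj), ← mul_assoc,
          hcomm i l _ _ (Ne.symm hli), mul_assoc, mul_smul, hdiag a]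
      · rw [smul_add, ← mul_smul, hsq l t htt, one_smul, add_comm]
  obtain ⟨v', hv', hd', hl'⟩ := hex
  rcases h.dich v' hv' with ⟨K, hK0, hK⟩ | ⟨k', c', θ', hk', hc', hθ'⟩
  · apply hK0 i
    rw [eq_top_iff]
    intro a _
    have := (hK _).mp (hd' a) i
    rwa [hdi] at this
  · obtain ⟨l', hl1, hl2⟩ := two_block hk' hc' l
    have := (hθ' _).mp hl' l' l hl2
    rw [Pi.mulSingle_eq_of_ne hl1, Pi.mulSingle_eq_same, map_one] at this
    exact ht1 ((MulEquiv.map_eq_one_iff _).mp this.symm)

end CL.Ep
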